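import Mathlib
import Cfsg.Prelude.Def_Solvable
import Cfsg.Agent.Lib.Helper46.FP.Defs

/-!
# S3814, package P10 (`PkgNF`, the non-faithful case): interface of the abstract core

The non-faithful case is reduced to an abstract statement about a finite solvable `{p, p'}`-group
`Λ` (a Hall subgroup `L` of `H`) carrying two predicates `FV`, `FU` ("has a nontrivial fixed point
on `V`", resp. on `U`).  This file only contains the structure `Abs` and the two abstract
packages as `Prop`-valued definitions.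
-/

set_option autoImplicit false

namespace Cfsg.Agent.Lib.Helper80.FP

universe u

/-- The abstract configuration.  `Λ` a finite solvable `{p, p'}`-group; `FV x`, `FU x`: "`x` has
a nontrivial fixed point on `V`" (resp. `U`).
* `t1V`, `t1U`: the relative form of (T1): if `e` has a fixed point and `⟨x, y⟩ ≅ C_ℓ × C_ℓ`
  centralizes `e`, then some `k ≠ 1` of `⟨x, y⟩` has a common fixed point with `e`
  (so `k * e` has a fixed point);
* `excl`: no element of prime order has fixed points on both;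
* `noV`, `noU`: elements of order `p p'` are fixed-point-free on both;
* `nf`: an element of prime order centralizes every abelian subgroup of coprime order which it
  normalizes;
* `rank`, `rank'`: `Λ` contains `C_p × C_p` and `C_p' × C_p'`. -/
structure Abs (Λ : Type u) [Group Λ] (p p' : ℕ) (FV FU : Λ → Prop) : Prop where
  fin : Finite Λ
  solv : Group.IsSolvable Λ
  pprime : p.Prime
  p'prime : p'.Prime
  ne : p ≠ p'
  card : ∀ ℓ : ℕ, ℓ.Prime → ℓ ∣ Nat.card Λ → ℓ = p ∨ ℓ = p'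
  conjV : ∀ g x : Λ, FV x → FV (g * x * g⁻¹)
  conjU : ∀ g x : Λ, FU x → FU (g * x * g⁻¹)
  powV : ∀ (x : Λ) (j : ℕ), FV x → FV (x ^ j)
  powU : ∀ (x : Λ) (j : ℕ), FU x → FU (x ^ j)
  oneV : FV 1
  oneU : FU 1
  t1V : ∀ ℓ : ℕ, ℓ.Prime → ∀ e x y : Λ, FV e → orderOf x = ℓ → orderOf y = ℓ → x * y = y * x →
    y ∉ Subgroup.zpowers x → x * e = e * x → y * e = e * y →
    ∃ k ∈ Subgroup.closure ({x, y} : Set Λ), k ≠ 1 ∧ FV (k * e)
  t1U : ∀ ℓ : ℕ, ℓ.Prime → ∀ e x y : Λ, FU e → orderOf x = ℓ → orderOf y = ℓ → x * y = y * x →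
    y ∉ Subgroup.zpowers x → x * e = e * x → y * e = e * y →
    ∃ k ∈ Subgroup.closure ({x, y} : Set Λ), k ≠ 1 ∧ FU (k * e)
  excl : ∀ x : Λ, (orderOf x).Prime → FV x → FU x → False
  noV : ∀ x : Λ, orderOf x = p * p' → ¬ FV x
  noU : ∀ x : Λ, orderOf x = p * p' → ¬ FU x
  nf : ∀ x : Λ, (orderOf x).Prime → ∀ K : Subgroup Λ, (∀ a ∈ K, ∀ b ∈ K, a * b = b * a) →
    ¬ orderOf x ∣ Nat.card K → (∀ k ∈ K, x * k * x⁻¹ ∈ K) → ∀ k ∈ K, x * k = k * x
  rank : ∃ x y : Λ, orderOf x = p ∧ orderOf y = p ∧ x * y = y * x ∧ y ∉ Subgroup.zpowers x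
  rank' : ∃ x y : Λ, orderOf x = p' ∧ orderOf y = p' ∧ x * y = y * x ∧ y ∉ Subgroup.zpowers x

/-- the configuration is symmetric in the two primes -/
theorem Abs.symm {Λ : Type u} [Group Λ] {p p' : ℕ} {FV FU : Λ → Prop} (h : Abs Λ p p' FV FU) :
    Abs Λ p' p FV FU where
  fin := h.fin
  solv := h.solv
  pprime := h.p'prime
  p'prime := h.pprime
  ne := h.ne.symm
  card := fun ℓ hℓ hd => (h.card ℓ hℓ hd).symm
  conjV := h.conjV
  conjU := h.conjU
  powV := h.powV
  powU := h.powU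
  oneV := h.oneV
  oneU := h.oneU
  t1V := h.t1V
  t1U := h.t1U
  excl := h.excl
  noV := fun x hx => h.noV x (by rw [hx, mul_comm])
  noU := fun x hx => h.noU x (by rw [hx, mul_comm])
  nf := h.nf
  rank := h.rank'
  rank' := h.rank

/-- **Core A** (one prime): all elements of order `p` of `O_p(Λ)` lie in one cyclic subgroup
`⟨w⟩`, and every element of order `p` of `Λ` centralizes `O_p(Λ)`. -/
def PkgCoreA : Prop :=
  ∀ {Λ : Type u} [Group Λ] {p p' : ℕ} {FV FU : Λ → Prop}, Abs Λ p p' FV FU →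
    ∃ w : Λ, w ^ p = 1 ∧ (∀ d ∈ Cfsg.pCore p Λ, d ^ p = 1 → d ∈ Subgroup.zpowers w) ∧
      (∀ x : Λ, orderOf x = p → ∀ g ∈ Cfsg.pCore p Λ, x * g = g * x)

/-- **Core B** (conclusion): with Core A the abstract configuration is impossible. -/
def PkgCoreB : Prop :=
  PkgCoreA.{u} → ∀ {Λ : Type u} [Group Λ] {q r : ℕ} {FV FU : Λ → Prop}, Abs Λ q r FV FU →
    q < r → False

/-- **Layer 1** (concrete): a non-faithful configuration `Cfg` gives an abstract one. -/
def PkgLayer : Prop :=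
  Cfsg.Agent.Lib.Helper46.FP.BF_F.{u} → Cfsg.Agent.Lib.Helper46.FP.BF_T1.{u} →
  ∀ {G : Type u} [Group G] {V H : Subgroup G} {t : ℕ} {π : Finset ℕ},
    Cfsg.Agent.Lib.Helper46.FP.Cfg V H t π → ¬ Cfsg.Agent.Lib.Helper46.FP.Faithful V H →
    ∃ (Λ : Type u) (_ : Group Λ) (q r : ℕ) (FV FU : Λ → Prop), q < r ∧ Abs Λ q r FV FU

/-- assembly -/
theorem pkgNF_of (hA : PkgCoreA.{u}) (hB : PkgCoreB.{u}) (hL : PkgLayer.{u}) :
    Cfsg.Agent.Lib.Helper46.FP.PkgNF.{u} := by
  intro hF hT1 G _ V H t π hc hnf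
  obtain ⟨Λ, _, q, r, FV, FU, hqr, habs⟩ := hL hF hT1 hc hnf
  exact hB hA habs hqr

end Cfsg.Agent.Lib.Helper80.FP
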