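import Mathlib
import Cfsg.Agent.Lib.Helper46.FP.Defs
import Cfsg.Agent.Lib.Helper97.FP.Tools
import Cfsg.Agent.Lib.Helper29.FP.T2
import Cfsg.Agent.Lib.Helper1.MinNormal
import Cfsg.Agent.Lib.Helper96.MinNormal

/-!
# S3814, package P10 (non-faithful case): generic lemmas for the concrete layer
-/

set_option autoImplicit false
set_option linter.style.haveILetI false

namespace Cfsg.Agent.Lib.Helper80.FP

open Cfsg.Agent.Lib.Helper46.FP

universe u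

section gen

variable {G : Type u} [Group G]

theorem pow_pred_orderOf [Finite G] (x : G) : x ^ (orderOf x - 1) = x⁻¹ := by
  apply eq_inv_of_mul_eq_one_left
  rw [← pow_succ, Nat.sub_add_cancel (orderOf_pos x), pow_orderOf_eq_one]

/-- elements of the closure of a commuting pair -/
theorem mem_closure_pair_nat [Finite G] {x y e : G} (hxy : x * y = y * x)
    (he : e ∈ Subgroup.closure ({x, y} : Set G)) : ∃ a b : ℕ, e = x ^ a * y ^ b := by
  have hc : Commute x y := hxy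
  induction he using Subgroup.closure_induction with
  | mem z hz =>
    rcases hz with rfl | hz
    · exact ⟨1, 0, by simp⟩
    · rw [Set.mem_singleton_iff] at hz
      subst hz
      exact ⟨0, 1, by simp⟩
  | one => exact ⟨0, 0, by simp⟩
  | mul z z' _ _ ih ih' =>
    obtain ⟨a, b, rfl⟩ := ih
    obtain ⟨a', b', rfl⟩ := ih'
    refine ⟨a + a', b + b', ?_⟩
    have h1 : y ^ b * x ^ a' = x ^ a' * y ^ b := ((hc.pow_pow a' b).symm).eq
    calc x ^ a * y ^ b * (x ^ a' * y ^ b') = x ^ a * (y ^ b * x ^ a') * y ^ b' := by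
          simp only [mul_assoc]
      _ = x ^ a * (x ^ a' * y ^ b) * y ^ b' := by rw [h1]
      _ = x ^ (a + a') * y ^ (b + b') := by rw [pow_add, pow_add]; simp only [mul_assoc]
  | inv z _ ih =>
    obtain ⟨a, b, rfl⟩ := ih
    refine ⟨(orderOf x - 1) * a, (orderOf y - 1) * b, ?_⟩
    have hx : x ^ ((orderOf x - 1) * a) = (x ^ a)⁻¹ := by
      rw [pow_mul, pow_pred_orderOf, inv_pow]
    have hy : y ^ ((orderOf y - 1) * b) = (y ^ b)⁻¹ := by
      rw [pow_mul, pow_pred_orderOf, inv_pow]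
    have h1 : (y ^ b)⁻¹ * (x ^ a)⁻¹ = (x ^ a)⁻¹ * (y ^ b)⁻¹ :=
      (((hc.pow_pow a b).symm).inv_inv).eq
    rw [hx, hy, mul_inv_rev, h1]

/-- in the closure of a commuting pair of elements of exponent `n` every element has exponent
`n` -/
theorem pow_eq_one_of_mem_closure_pair [Finite G] {x y e : G} {n : ℕ} (hxy : x * y = y * x)
    (hx : x ^ n = 1) (hy : y ^ n = 1) (he : e ∈ Subgroup.closure ({x, y} : Set G)) :
    e ^ n = 1 := by
  obtain ⟨a, b, rfl⟩ := mem_closure_pair_nat hxy he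
  have hc : Commute (x ^ a) (y ^ b) := (show Commute x y from hxy).pow_pow a b
  rw [hc.mul_pow, ← pow_mul, ← pow_mul, mul_comm a n, mul_comm b n, pow_mul, pow_mul, hx, hy,
    one_pow, one_pow, one_mul]

/-- if `y` has prime order and `y ^ i ≠ 1` then `y` is a power of `y ^ i` -/
theorem exists_pow_pow_eq {y : G} (hp : (orderOf y).Prime) (i : ℕ) (hi : y ^ i ≠ 1) :
    ∃ m : ℕ, (y ^ i) ^ m = y := by
  have h1 : ¬ orderOf y ∣ i := fun h => hi (orderOf_dvd_iff_pow_eq_one.mp h)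
  have h2 : Nat.Coprime i (orderOf y) := ((Nat.Prime.coprime_iff_not_dvd hp).mpr h1).symm
  obtain ⟨m, -, hm⟩ := Nat.exists_mul_mod_eq_one_of_coprime h2 hp.one_lt
  refine ⟨m, ?_⟩
  rw [← pow_mul, ← pow_mod_orderOf, hm, pow_one]

/-- `Fx` is stable under conjugation by elements normalizing `W` -/
theorem fx_conj {W : Subgroup G} (g x : G) (hW : ∀ w ∈ W, g * w * g⁻¹ ∈ W) (h : Fx W x) :
    Fx W (g * x * g⁻¹) := by
  obtain ⟨v, hv, hv1, hvx⟩ := h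
  refine ⟨g * v * g⁻¹, hW v hv, ?_, ?_⟩
  · intro h1
    apply hv1
    have h2 : v = g⁻¹ * (g * v * g⁻¹) * g := by group
    rw [h2, h1]; group
  · calc g * v * g⁻¹ * (g * x * g⁻¹) = g * (v * x) * g⁻¹ := by group
      _ = g * (x * v) * g⁻¹ := by rw [hvx]
      _ = g * x * g⁻¹ * (g * v * g⁻¹) := by group

theorem fx_pow {W : Subgroup G} (x : G) (j : ℕ) (h : Fx W x) : Fx W (x ^ j) := by
  obtain ⟨v, hv, hv1, hvx⟩ := h
  exact ⟨v, hv, hv1, ((show Commute v x from hvx).pow_right j).eq⟩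

theorem fx_one {W : Subgroup G} (hW : W ≠ ⊥) : Fx W 1 := by
  obtain ⟨a, ha⟩ := (Subgroup.ne_bot_iff_exists_ne_one).1 hW
  exact ⟨(a : G), a.2, fun h => ha (Subtype.ext h), by rw [mul_one, one_mul]⟩

/-- (CP a) for a single element -/
theorem cpa_elt [Finite G] (K : Subgroup G) (g k : G) (hmK : k * g * k⁻¹ * g⁻¹ ∈ K)
    (hcop : Nat.Coprime (orderOf g) (Nat.card K))
    (hc : g * (k * g * k⁻¹ * g⁻¹) = (k * g * k⁻¹ * g⁻¹) * g) : k * g * k⁻¹ * g⁻¹ = 1 := by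
  obtain ⟨w, hw⟩ : ∃ w : G, w = k * g * k⁻¹ * g⁻¹ := ⟨_, rfl⟩
  rw [← hw] at hmK hc ⊢
  have hconj : g * k * g⁻¹ = w⁻¹ * k := by rw [hw]; group
  have hpow : ∀ m : ℕ, g ^ m * k * (g ^ m)⁻¹ = (w ^ m)⁻¹ * k := by
    intro m
    induction m with
    | zero => simp
    | succ m ih =>
      have hgwm : g * (w ^ m)⁻¹ = (w ^ m)⁻¹ * g := by
        have h3 : Commute g (w ^ m) := (show Commute g w from hc).pow_right m
        exact (h3.inv_right).eq
      calc g ^ (m + 1) * k * (g ^ (m + 1))⁻¹ = g * (g ^ m * k * (g ^ m)⁻¹) * g⁻¹ := by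
            rw [pow_succ']; group
        _ = g * ((w ^ m)⁻¹ * k) * g⁻¹ := by rw [ih]
        _ = (g * (w ^ m)⁻¹) * (k * g⁻¹) := by group
        _ = ((w ^ m)⁻¹ * g) * (k * g⁻¹) := by rw [hgwm]
        _ = (w ^ m)⁻¹ * (g * k * g⁻¹) := by group
        _ = (w ^ m)⁻¹ * (w⁻¹ * k) := by rw [hconj]
        _ = (w ^ (m + 1))⁻¹ * k := by rw [pow_succ]; group
  have h5 := hpow (orderOf g)
  rw [pow_orderOf_eq_one] at h5
  have h6 : w ^ orderOf g = 1 := by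
    have h7 : (w ^ orderOf g)⁻¹ = 1 := by
      have h8 : (w ^ orderOf g)⁻¹ * k = 1 * k := by rw [← h5]; group
      exact mul_right_cancel h8
    rw [← inv_inv (w ^ orderOf g), h7, inv_one]
  have h9 : w ^ Nat.card K = 1 := by
    have h16 : (⟨w, hmK⟩ : ↥K) ^ Nat.card K = 1 := pow_card_eq_one'
    have h10 := congrArg Subtype.val h16
    rw [Subgroup.coe_pow, Subgroup.coe_one] at h10
    exact h10
  have h11 : orderOf w ∣ orderOf g := orderOf_dvd_of_pow_eq_one h6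
  have h12 : orderOf w ∣ Nat.card K := orderOf_dvd_of_pow_eq_one h9
  have h13 : orderOf w = 1 := Nat.eq_one_of_dvd_coprimes hcop h11 h12
  exact orderOf_eq_one_iff.1 h13

/-- for an abelian subgroup `K` normalized by `x`, the commutators `[k, x]` form a subgroup -/
def commSub (K : Subgroup G) (x : G) (hab : ∀ a ∈ K, ∀ b ∈ K, a * b = b * a)
    (hx : ∀ k ∈ K, x * k * x⁻¹ ∈ K) : Subgroup G where
  carrier := {m | ∃ k ∈ K, m = k * x * k⁻¹ * x⁻¹}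
  one_mem' := ⟨1, K.one_mem, by group⟩
  mul_mem' := by
    rintro _ _ ⟨k, hk, rfl⟩ ⟨k', hk', rfl⟩
    refine ⟨k * k', K.mul_mem hk hk', ?_⟩
    have h1 : (x * k⁻¹ * x⁻¹) * k' = k' * (x * k⁻¹ * x⁻¹) :=
      hab _ (hx _ (K.inv_mem hk)) _ hk'
    have h2 : k * k' = k' * k := hab _ hk _ hk'
    calc k * x * k⁻¹ * x⁻¹ * (k' * x * k'⁻¹ * x⁻¹)
        = k * ((x * k⁻¹ * x⁻¹) * k') * (x * k'⁻¹ * x⁻¹) := by group
      _ = k * (k' * (x * k⁻¹ * x⁻¹)) * (x * k'⁻¹ * x⁻¹) := by rw [h1]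
      _ = (k * k') * x * (k' * k)⁻¹ * x⁻¹ := by group
      _ = (k * k') * x * (k * k')⁻¹ * x⁻¹ := by rw [h2]
  inv_mem' := by
    rintro _ ⟨k, hk, rfl⟩
    refine ⟨k⁻¹, K.inv_mem hk, ?_⟩
    have h1 : (x * k * x⁻¹) * k⁻¹ = k⁻¹ * (x * k * x⁻¹) := hab _ (hx _ hk) _ (K.inv_mem hk)
    calc (k * x * k⁻¹ * x⁻¹)⁻¹ = (x * k * x⁻¹) * k⁻¹ := by group
      _ = k⁻¹ * (x * k * x⁻¹) := h1
      _ = k⁻¹ * x * k⁻¹⁻¹ * x⁻¹ := by group

theorem mem_commSub {K : Subgroup G} {x : G} {hab : ∀ a ∈ K, ∀ b ∈ K, a * b = b * a}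
    {hx : ∀ k ∈ K, x * k * x⁻¹ ∈ K} {m : G} :
    m ∈ commSub K x hab hx ↔ ∃ k ∈ K, m = k * x * k⁻¹ * x⁻¹ := Iff.rfl

theorem commSub_le (K : Subgroup G) (x : G) (hab : ∀ a ∈ K, ∀ b ∈ K, a * b = b * a)
    (hx : ∀ k ∈ K, x * k * x⁻¹ ∈ K) : commSub K x hab hx ≤ K := by
  rintro _ ⟨k, hk, rfl⟩
  have h1 := K.mul_mem hk (hx _ (K.inv_mem hk))
  have h2 : k * (x * k⁻¹ * x⁻¹) = k * x * k⁻¹ * x⁻¹ := by group
  rw [h2] at h1
  exact h1

theorem commSub_conj (K : Subgroup G) (x : G) (hab : ∀ a ∈ K, ∀ b ∈ K, a * b = b * a)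
    (hx : ∀ k ∈ K, x * k * x⁻¹ ∈ K) :
    ∀ m ∈ commSub K x hab hx, x * m * x⁻¹ ∈ commSub K x hab hx := by
  rintro _ ⟨k, hk, rfl⟩
  exact ⟨x * k * x⁻¹, hx k hk, by group⟩

/-- relative minimal normal subgroups of a solvable subgroup are elementary abelian -/
theorem exists_min_rel [Finite G] (L C : Subgroup G) (hL : Group.IsSolvable L)
    (hCL : C ≤ L) (hnorm : ∀ l ∈ L, ∀ c ∈ C, l * c * l⁻¹ ∈ C) (hC : C ≠ ⊥) :
    ∃ M : Subgroup G, M ≤ C ∧ M ≠ ⊥ ∧ (∀ l ∈ L, ∀ m ∈ M, l * m * l⁻¹ ∈ M) ∧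
      (∀ a ∈ M, ∀ b ∈ M, a * b = b * a) ∧ ∃ p : ℕ, p.Prime ∧ ∀ x ∈ M, x ^ p = 1 := by
  have hCn : (C.subgroupOf L).Normal := by
    refine ⟨fun c hc l => ?_⟩
    rw [Subgroup.mem_subgroupOf] at hc ⊢
    exact hnorm l l.2 c hc
  have hCne : C.subgroupOf L ≠ ⊥ := by
    intro h
    apply hC
    rw [eq_bot_iff]
    intro c hc
    have h1 : (⟨c, hCL hc⟩ : ↥L) ∈ C.subgroupOf L := by
      rw [Subgroup.mem_subgroupOf]; exact hc
    rw [h, Subgroup.mem_bot] at h1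
    rw [Subgroup.mem_bot]
    exact congrArg Subtype.val h1
  obtain ⟨M', ⟨hM'n, hM'ne, hM'min⟩, hM'C⟩ :=
    Cfsg.Agent.Lib.Helper96.exists_isMinNormal_le (C.subgroupOf L) hCn hCne
  haveI := hM'n
  have hsolv : Group.IsSolvable ↥M' :=
    Group.isSolvable_of_isSolvable_injective (Subgroup.subtype_injective M')
  obtain ⟨hcomm, p, hp, hexp⟩ :=
    Cfsg.Agent.Lib.Helper1.minNormal_elementary M' hsolv hM'ne hM'min
  refine ⟨M'.map L.subtype, ?_, ?_, ?_, ?_, p, hp, ?_⟩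
  · rintro _ ⟨m, hm, rfl⟩
    exact Subgroup.mem_subgroupOf.1 (hM'C hm)
  · intro h
    exact hM'ne ((Subgroup.map_eq_bot_iff_of_injective M' L.subtype_injective).1 h)
  · rintro l hl _ ⟨m, hm, rfl⟩
    exact ⟨⟨l, hl⟩ * m * ⟨l, hl⟩⁻¹, hM'n.conj_mem m hm ⟨l, hl⟩, rfl⟩
  · rintro _ ⟨a, ha, rfl⟩ _ ⟨b, hb, rfl⟩
    have h1 : a * b = b * a := (setLike_mul_comm (s := M') ha hb)
    exact congrArg Subtype.val h1
  · rintro _ ⟨m, hm, rfl⟩
    have h1 := hexp m hm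
    exact congrArg Subtype.val h1

end gen

end Cfsg.Agent.Lib.Helper80.FP
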