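import Mathlib
import Cfsg.Agent.Lib.Helper80.FP.NFDefs
import Cfsg.Agent.Lib.Helper80.FP.LayerGen

/-!
# S3814, package P10 (non-faithful case): the local configuration `Loc` and the abstract one
-/

set_option autoImplicit false
set_option linter.style.haveILetI false

namespace Cfsg.Agent.Lib.Helper80.FP

open Cfsg.Agent.Lib.Helper46.FP

universe u

section loc

variable {G : Type u} [Group G]

/-- the local configuration: a solvable `{q, r}`-subgroup `L` normalizing two abelian subgroups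
`V`, `U` of coprime order -/
structure Loc (L V U : Subgroup G) (q r : ℕ) : Prop where
  fin : Finite G
  solv : Group.IsSolvable L
  qprime : q.Prime
  rprime : r.Prime
  ne : q ≠ r
  card : ∀ ℓ : ℕ, ℓ.Prime → ℓ ∣ Nat.card L → ℓ = q ∨ ℓ = r
  normV : ∀ l ∈ L, ∀ v ∈ V, l * v * l⁻¹ ∈ V
  normU : ∀ l ∈ L, ∀ v ∈ U, l * v * l⁻¹ ∈ U
  abV : ∀ a ∈ V, ∀ b ∈ V, a * b = b * a
  abU : ∀ a ∈ U, ∀ b ∈ U, a * b = b * a
  neV : V ≠ ⊥
  neU : U ≠ ⊥
  copV : (Nat.card L).Coprime (Nat.card V)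
  copU : (Nat.card L).Coprime (Nat.card U)
  excl : ∀ x ∈ L, (orderOf x).Prime → Fx V x → Fx U x → False
  noV : ∀ x ∈ L, orderOf x = q * r → ¬ Fx V x
  noU : ∀ x ∈ L, orderOf x = q * r → ¬ Fx U x
  rankq : ∃ x ∈ L, ∃ y ∈ L, orderOf x = q ∧ orderOf y = q ∧ x * y = y * x ∧
    y ∉ Subgroup.zpowers x
  rankr : ∃ x ∈ L, ∃ y ∈ L, orderOf x = r ∧ orderOf y = r ∧ x * y = y * x ∧
    y ∉ Subgroup.zpowers x

theorem Loc.swapqr {L V U : Subgroup G} {q r : ℕ} (h : Loc L V U q r) : Loc L V U r q where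
  fin := h.fin
  solv := h.solv
  qprime := h.rprime
  rprime := h.qprime
  ne := h.ne.symm
  card := fun ℓ hℓ hd => (h.card ℓ hℓ hd).symm
  normV := h.normV
  normU := h.normU
  abV := h.abV
  abU := h.abU
  neV := h.neV
  neU := h.neU
  copV := h.copV
  copU := h.copU
  excl := h.excl
  noV := fun x hx ho => h.noV x hx (by rw [ho, mul_comm])
  noU := fun x hx ho => h.noU x hx (by rw [ho, mul_comm])
  rankq := h.rankr
  rankr := h.rankq

theorem Loc.swapVU {L V U : Subgroup G} {q r : ℕ} (h : Loc L V U q r) : Loc L U V q r where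
  fin := h.fin
  solv := h.solv
  qprime := h.qprime
  rprime := h.rprime
  ne := h.ne
  card := h.card
  normV := h.normU
  normU := h.normV
  abV := h.abU
  abU := h.abV
  neV := h.neU
  neU := h.neV
  copV := h.copU
  copU := h.copV
  excl := fun x hx hp hU hV => h.excl x hx hp hV hU
  noV := h.noU
  noU := h.noV
  rankq := h.rankq
  rankr := h.rankr

theorem exists_ne_one_of_ne_bot {W : Subgroup G} (hW : W ≠ ⊥) : ∃ w ∈ W, w ≠ 1 := by
  obtain ⟨a, ha⟩ := (Subgroup.ne_bot_iff_exists_ne_one).1 hW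
  exact ⟨(a : G), a.2, fun h => ha (Subtype.ext h)⟩

/-- (N4), one case: no nontrivial `L`-invariant subgroup of exponent `q` of `L` centralizes
`V` -/
theorem faithful_core {L V U : Subgroup G} {q r : ℕ} (h : Loc L V U q r) (M : Subgroup G)
    (hML : M ≤ L) (hMV : ∀ m ∈ M, ∀ v ∈ V, v * m = m * v) (hM1 : M ≠ ⊥)
    (hMn : ∀ l ∈ L, ∀ m ∈ M, l * m * l⁻¹ ∈ M) (hMexp : ∀ m ∈ M, m ^ q = 1) : False := by
  haveI := h.fin
  haveI : Fact q.Prime := ⟨h.qprime⟩
  haveI : Fact r.Prime := ⟨h.rprime⟩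
  obtain ⟨x', hx'L, y', hy'L, hox', hoy', hxy', hyx'⟩ := h.rankr
  have hrL : r ∣ Nat.card L := by
    rw [← hox']; exact Subgroup.orderOf_dvd_natCard L hx'L
  have hrV : ¬ r ∣ Nat.card V := fun hd =>
    h.rprime.one_lt.ne' (Nat.eq_one_of_dvd_coprimes h.copV hrL hd)
  obtain ⟨e, hecl, he1, v, hv, hv1, hev⟩ := Cfsg.Agent.Lib.Helper97.FP.tool_T1 r h.rprime x' y'
    hox' hoy' hxy' hyx' V h.neV hrV (fun w hw => h.normV x' hx'L w hw)
    (fun w hw => h.normV y' hy'L w hw)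
  have heL : e ∈ L := by
    refine (Subgroup.closure_le L).2 ?_ hecl
    intro z hz
    rcases hz with rfl | hz
    · exact hx'L
    · rw [Set.mem_singleton_iff] at hz
      rw [hz]; exact hy'L
  have her : e ^ r = 1 := pow_eq_one_of_mem_closure_pair hxy'
    (by rw [← hox']; exact pow_orderOf_eq_one _) (by rw [← hoy']; exact pow_orderOf_eq_one _) hecl
  have hoe : orderOf e = r := orderOf_eq_prime her he1
  have hFVe : Fx V e := ⟨v, hv, hv1, hev.symm⟩
  have hnFU : ∀ w ∈ U, e * w = w * e → w = 1 := by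
    intro w hw hew
    by_contra hw1
    exact h.excl e heL (by rw [hoe]; exact h.rprime) hFVe ⟨w, hw, hw1, hew.symm⟩
  have hfpf : ∀ i : ℕ, e ^ i ≠ 1 → ∀ k ∈ M, e ^ i * k = k * e ^ i → k = 1 := by
    intro i hi k hk hcomm
    by_contra hk1
    have hok : orderOf k = q := orderOf_eq_prime (hMexp k hk) hk1
    have hoei : orderOf (e ^ i) = r :=
      orderOf_eq_prime (by rw [← pow_mul, mul_comm, pow_mul, her, one_pow]) hi
    have hord : orderOf (k * e ^ i) = q * r := by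
      have h1 := Commute.orderOf_mul_eq_mul_orderOf_of_coprime
        (show Commute k (e ^ i) from hcomm.symm)
        (by rw [hok, hoei]; exact (Nat.coprime_primes h.qprime h.rprime).2 h.ne)
      rw [h1, hok, hoei]
    apply h.noV (k * e ^ i) (L.mul_mem (hML hk) (L.pow_mem heL i)) hord
    refine ⟨v, hv, hv1, ?_⟩
    have h1 : v * k = k * v := hMV k hk v hv
    have h2 : v * e ^ i = e ^ i * v := ((show Commute v e from hev.symm).pow_right i).eq
    calc v * (k * e ^ i) = (v * k) * e ^ i := by rw [mul_assoc]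
      _ = k * (v * e ^ i) := by rw [h1, mul_assoc]
      _ = k * e ^ i * v := by rw [h2, mul_assoc]
  have hcent := Cfsg.Agent.Lib.Helper29.FP.t2' M U e (fun k hk => hMn e heL k hk)
    (fun w hw => h.normU e heL w hw) (fun k hk w hw => h.normU k (hML hk) w hw) h.abU
    (Nat.Coprime.coprime_dvd_left (Subgroup.card_dvd_of_le hML) h.copU) hfpf hnFU
  obtain ⟨k, hk, hk1⟩ := exists_ne_one_of_ne_bot hM1
  have hok : orderOf k = q := orderOf_eq_prime (hMexp k hk) hk1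
  obtain ⟨v0, hv0, hv01⟩ := exists_ne_one_of_ne_bot h.neV
  obtain ⟨w0, hw0, hw01⟩ := exists_ne_one_of_ne_bot h.neU
  exact h.excl k (hML hk) (by rw [hok]; exact h.qprime) ⟨v0, hv0, hv01, hMV k hk v0 hv0⟩
    ⟨w0, hw0, hw01, (hcent k hk w0 hw0).symm⟩

/-- (N4): `L` acts faithfully on `V` -/
theorem faithful_of_loc {L V U : Subgroup G} {q r : ℕ} (h : Loc L V U q r) :
    ∀ m ∈ L, (∀ v ∈ V, v * m = m * v) → m = 1 := by
  intro m hm hmV
  by_contra hm1
  haveI := h.fin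
  obtain ⟨C, hCdef⟩ : ∃ C : Subgroup G, C = L ⊓ Subgroup.centralizer (V : Set G) := ⟨_, rfl⟩
  have hCmem : ∀ c, c ∈ C ↔ c ∈ L ∧ ∀ v ∈ V, v * c = c * v := by
    intro c
    rw [hCdef, Subgroup.mem_inf, Subgroup.mem_centralizer_iff]
    rfl
  have hCL : C ≤ L := fun c hc => ((hCmem c).1 hc).1
  have hCn : ∀ l ∈ L, ∀ c ∈ C, l * c * l⁻¹ ∈ C := by
    intro l hl c hc
    rw [hCmem] at hc ⊢
    refine ⟨L.mul_mem (L.mul_mem hl hc.1) (L.inv_mem hl), ?_⟩
    intro v hv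
    have h1 := hc.2 (l⁻¹ * v * l⁻¹⁻¹) (h.normV l⁻¹ (L.inv_mem hl) v hv)
    calc v * (l * c * l⁻¹) = l * ((l⁻¹ * v * l⁻¹⁻¹) * c) * l⁻¹ := by group
      _ = l * (c * (l⁻¹ * v * l⁻¹⁻¹)) * l⁻¹ := by rw [h1]
      _ = l * c * l⁻¹ * v := by group
  have hC1 : C ≠ ⊥ := by
    intro hb
    apply hm1
    have h1 : m ∈ C := (hCmem m).2 ⟨hm, hmV⟩
    rw [hb, Subgroup.mem_bot] at h1
    exact h1
  obtain ⟨M, hMC, hM1, hMn, -, p, hp, hMexp⟩ := exists_min_rel L C h.solv hCL hCn hC1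
  obtain ⟨k, hk, hk1⟩ := exists_ne_one_of_ne_bot hM1
  haveI : Fact p.Prime := ⟨hp⟩
  have hok : orderOf k = p := orderOf_eq_prime (hMexp k hk) hk1
  have hpL : p ∣ Nat.card L := by
    rw [← hok]; exact Subgroup.orderOf_dvd_natCard L (hCL (hMC hk))
  have hML : M ≤ L := hMC.trans hCL
  have hMV : ∀ m ∈ M, ∀ v ∈ V, v * m = m * v := fun m hm => ((hCmem m).1 (hMC hm)).2
  rcases h.card p hp hpL with rfl | rfl
  · exact faithful_core h M hML hMV hM1 hMn hMexp
  · exact faithful_core h.swapqr M hML hMV hM1 hMn hMexp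

/-- (N5) -/
theorem nf_of_loc {L V U : Subgroup G} {q r : ℕ} (h : Loc L V U q r) (x : G) (hxL : x ∈ L)
    (hxp : (orderOf x).Prime) (K0 : Subgroup G) (hK0L : K0 ≤ L)
    (hab : ∀ a ∈ K0, ∀ b ∈ K0, a * b = b * a) (hnd : ¬ orderOf x ∣ Nat.card K0)
    (hxK : ∀ k ∈ K0, x * k * x⁻¹ ∈ K0) : ∀ k ∈ K0, x * k = k * x := by
  haveI := h.fin
  have hcop : Nat.Coprime (orderOf x) (Nat.card K0) := (Nat.Prime.coprime_iff_not_dvd hxp).2 hnd
  obtain ⟨K1, hK1⟩ : ∃ K1 : Subgroup G, K1 = commSub K0 x hab hxK := ⟨_, rfl⟩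
  have hK1K0 : K1 ≤ K0 := by rw [hK1]; exact commSub_le K0 x hab hxK
  have hK1L : K1 ≤ L := hK1K0.trans hK0L
  have hxK1 : ∀ m ∈ K1, x * m * x⁻¹ ∈ K1 := by rw [hK1]; exact commSub_conj K0 x hab hxK
  have hfpf : ∀ i : ℕ, x ^ i ≠ 1 → ∀ m ∈ K1, x ^ i * m = m * x ^ i → m = 1 := by
    intro i hi m hm hcomm
    obtain ⟨j, hj⟩ := exists_pow_pow_eq hxp i hi
    have hxm : x * m = m * x := by
      have h1 : Commute (x ^ i) m := hcomm
      have h2 := h1.pow_left j
      rw [hj] at h2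
      exact h2.eq
    rw [hK1] at hm
    obtain ⟨k, hk, rfl⟩ := hm
    exact cpa_elt K0 x k (commSub_le K0 x hab hxK ⟨k, hk, rfl⟩) hcop hxm
  have key : ∀ W : Subgroup G, (∀ l ∈ L, ∀ w ∈ W, l * w * l⁻¹ ∈ W) →
      (∀ a ∈ W, ∀ b ∈ W, a * b = b * a) → (Nat.card L).Coprime (Nat.card W) → ¬ Fx W x →
      (∀ m ∈ L, (∀ v ∈ W, v * m = m * v) → m = 1) → ∀ k ∈ K0, x * k = k * x := by
    intro W hnW habW hcopW hnFx hfaith k hk
    have hcent := Cfsg.Agent.Lib.Helper29.FP.t2' K1 W x hxK1 (fun w hw => hnW x hxL w hw)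
      (fun m hm w hw => hnW m (hK1L hm) w hw) habW
      (Nat.Coprime.coprime_dvd_left (Subgroup.card_dvd_of_le hK1L) hcopW) hfpf
      (by
        intro w hw hxw
        by_contra hw1
        exact hnFx ⟨w, hw, hw1, hxw.symm⟩)
    have hmem : k * x * k⁻¹ * x⁻¹ ∈ K1 := by rw [hK1]; exact ⟨k, hk, rfl⟩
    have h1 : k * x * k⁻¹ * x⁻¹ = 1 :=
      hfaith _ (hK1L hmem) (fun v hv => (hcent _ hmem v hv).symm)
    have h2 : k * x = x * k := by
      calc k * x = (k * x * k⁻¹ * x⁻¹) * (x * k) := by group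
        _ = x * k := by rw [h1, one_mul]
    exact h2.symm
  by_cases hV : Fx V x
  · have hU : ¬ Fx U x := fun hU => h.excl x hxL hxp hV hU
    exact key U h.normU h.abU h.copU hU (faithful_of_loc h.swapVU)
  · exact key V h.normV h.abV h.copV hV (faithful_of_loc h)

/-- relative (T1) -/
theorem t1_rel [Finite G] (L W : Subgroup G) (hn : ∀ l ∈ L, ∀ w ∈ W, l * w * l⁻¹ ∈ W)
    (hcop : (Nat.card L).Coprime (Nat.card W)) (ℓ : ℕ) (hℓ : ℓ.Prime) (e x y : ↥L)
    (he : Fx W (e : G)) (hx : orderOf x = ℓ) (hy : orderOf y = ℓ) (hxy : x * y = y * x)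
    (hyx : y ∉ Subgroup.zpowers x) (hxe : x * e = e * x) (hye : y * e = e * y) :
    ∃ k ∈ Subgroup.closure ({x, y} : Set ↥L), k ≠ 1 ∧ Fx W ((k * e : ↥L) : G) := by
  obtain ⟨W', hW'⟩ : ∃ W' : Subgroup G, W' = W ⊓ Subgroup.centralizer ({(e : G)} : Set G) :=
    ⟨_, rfl⟩
  have hW'mem : ∀ w, w ∈ W' ↔ w ∈ W ∧ w * (e : G) = (e : G) * w := by
    intro w
    rw [hW', Subgroup.mem_inf, Subgroup.mem_centralizer_singleton_iff]
  obtain ⟨v, hv, hv1, hve⟩ := he
  have hW'ne : W' ≠ ⊥ := by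
    intro hb
    have h1 : v ∈ W' := (hW'mem v).2 ⟨hv, hve⟩
    rw [hb, Subgroup.mem_bot] at h1
    exact hv1 h1
  have hℓL : ℓ ∣ Nat.card L := by rw [← hx]; exact orderOf_dvd_natCard x
  have hℓW' : ¬ ℓ ∣ Nat.card W' := by
    intro hd
    have hd2 : ℓ ∣ Nat.card W :=
      hd.trans (Subgroup.card_dvd_of_le (by rw [hW']; exact inf_le_left))
    exact hℓ.one_lt.ne' (Nat.eq_one_of_dvd_coprimes hcop hℓL hd2)
  have hxG : orderOf (x : G) = ℓ := by rw [Subgroup.orderOf_coe]; exact hx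
  have hyG : orderOf (y : G) = ℓ := by rw [Subgroup.orderOf_coe]; exact hy
  have hxyG : (x : G) * (y : G) = (y : G) * (x : G) := congrArg Subtype.val hxy
  have hyxG : (y : G) ∉ Subgroup.zpowers (x : G) := by
    intro hmem
    obtain ⟨k, hk⟩ := Subgroup.mem_zpowers_iff.1 hmem
    apply hyx
    rw [Subgroup.mem_zpowers_iff]
    exact ⟨k, Subtype.ext (by rw [Subgroup.coe_zpow]; exact hk)⟩
  have hnorm : ∀ z : ↥L, z * e = e * z → ∀ w ∈ W', (z : G) * w * (z : G)⁻¹ ∈ W' := by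
    intro z hze w hw
    rw [hW'mem] at hw ⊢
    refine ⟨hn z z.2 w hw.1, ?_⟩
    have hzeG : (z : G) * (e : G) = (e : G) * (z : G) := congrArg Subtype.val hze
    have h3 : (z : G)⁻¹ * (e : G) = (e : G) * (z : G)⁻¹ :=
      ((show Commute (z : G) (e : G) from hzeG).inv_left).eq
    calc (z : G) * w * (z : G)⁻¹ * (e : G) = (z : G) * w * ((z : G)⁻¹ * (e : G)) := by group
      _ = (z : G) * (w * (e : G)) * (z : G)⁻¹ := by rw [h3]; group
      _ = (z : G) * ((e : G) * w) * (z : G)⁻¹ := by rw [hw.2]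
      _ = ((z : G) * (e : G)) * w * (z : G)⁻¹ := by group
      _ = (e : G) * ((z : G) * w * (z : G)⁻¹) := by rw [hzeG]; group
  obtain ⟨k0, hk0, hk01, w, hw, hw1, hkw⟩ := Cfsg.Agent.Lib.Helper97.FP.tool_T1 ℓ hℓ (x : G)
    (y : G) hxG hyG hxyG hyxG W' hW'ne hℓW' (hnorm x hxe) (hnorm y hye)
  have hcl : Subgroup.closure ({(x : G), (y : G)} : Set G)
      = (Subgroup.closure ({x, y} : Set ↥L)).map L.subtype := by
    rw [MonoidHom.map_closure, Set.image_pair]
    rfl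
  rw [hcl] at hk0
  obtain ⟨k, hk, rfl⟩ := hk0
  refine ⟨k, hk, ?_, w, ((hW'mem w).1 hw).1, hw1, ?_⟩
  · intro h
    apply hk01
    rw [h]
    rfl
  · have h1 := ((hW'mem w).1 hw).2
    have h2 : (k : G) * w = w * (k : G) := hkw
    show w * ((k : G) * (e : G)) = (k : G) * (e : G) * w
    calc w * ((k : G) * (e : G)) = (w * (k : G)) * (e : G) := by rw [mul_assoc]
      _ = (k : G) * (w * (e : G)) := by rw [← h2, mul_assoc]
      _ = (k : G) * (e : G) * w := by rw [h1, mul_assoc]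

/-- the local configuration gives the abstract one -/
theorem abs_of_loc {L V U : Subgroup G} {q r : ℕ} (h : Loc L V U q r) :
    Abs ↥L q r (fun x => Fx V (x : G)) (fun x => Fx U (x : G)) := by
  haveI := h.fin
  have hrank : ∀ b : ℕ, (∃ x ∈ L, ∃ y ∈ L, orderOf x = b ∧ orderOf y = b ∧ x * y = y * x ∧
      y ∉ Subgroup.zpowers x) → ∃ x y : ↥L, orderOf x = b ∧ orderOf y = b ∧ x * y = y * x ∧
      y ∉ Subgroup.zpowers x := by
    rintro b ⟨x, hxL, y, hyL, hox, hoy, hxy, hyx⟩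
    refine ⟨⟨x, hxL⟩, ⟨y, hyL⟩, by rw [Subgroup.orderOf_mk]; exact hox,
      by rw [Subgroup.orderOf_mk]; exact hoy, Subtype.ext hxy, ?_⟩
    intro hmem
    apply hyx
    obtain ⟨k, hk⟩ := Subgroup.mem_zpowers_iff.1 hmem
    rw [Subgroup.mem_zpowers_iff]
    refine ⟨k, ?_⟩
    have h1 := congrArg Subtype.val hk
    rw [Subgroup.coe_zpow] at h1
    exact h1
  refine
    { fin := inferInstance
      solv := h.solv
      pprime := h.qprime
      p'prime := h.rprime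
      ne := h.ne
      card := h.card
      conjV := ?_
      conjU := ?_
      powV := ?_
      powU := ?_
      oneV := fx_one h.neV
      oneU := fx_one h.neU
      t1V := ?_
      t1U := ?_
      excl := ?_
      noV := ?_
      noU := ?_
      nf := ?_
      rank := hrank q h.rankq
      rank' := hrank r h.rankr }
  · intro g x hx
    exact fx_conj (g : G) (x : G) (fun w hw => h.normV g g.2 w hw) hx
  · intro g x hx
    exact fx_conj (g : G) (x : G) (fun w hw => h.normU g g.2 w hw) hx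
  · intro x j hx
    exact fx_pow (x : G) j hx
  · intro x j hx
    exact fx_pow (x : G) j hx
  · intro ℓ hℓ e x y he hx hy hxy hyx hxe hye
    exact t1_rel L V h.normV h.copV ℓ hℓ e x y he hx hy hxy hyx hxe hye
  · intro ℓ hℓ e x y he hx hy hxy hyx hxe hye
    exact t1_rel L U h.normU h.copU ℓ hℓ e x y he hx hy hxy hyx hxe hye
  · intro x hxp hV hU
    exact h.excl (x : G) x.2 (by rw [Subgroup.orderOf_coe]; exact hxp) hV hU
  · intro x hx
    exact h.noV (x : G) x.2 (by rw [Subgroup.orderOf_coe]; exact hx)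
  · intro x hx
    exact h.noU (x : G) x.2 (by rw [Subgroup.orderOf_coe]; exact hx)
  · intro x hxp K hab hnd hxK k hk
    have key := nf_of_loc h (x : G) x.2 (by rw [Subgroup.orderOf_coe]; exact hxp)
      (K.map L.subtype) (Subgroup.map_subtype_le K)
      (by
        rintro _ ⟨a, ha, rfl⟩ _ ⟨b, hb, rfl⟩
        exact congrArg Subtype.val (hab a ha b hb))
      (by
        rw [Subgroup.orderOf_coe, Subgroup.card_map_of_injective L.subtype_injective]
        exact hnd)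
      (by
        rintro _ ⟨k, hk, rfl⟩
        exact ⟨x * k * x⁻¹, hxK k hk, rfl⟩)
      (k : G) (Subgroup.mem_map_of_mem _ hk)
    exact Subtype.ext key

end loc

end Cfsg.Agent.Lib.Helper80.FP
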