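import Mathlib
import Cfsg.Agent.Lib.Helper80.FP.LayerAux
import Cfsg.Agent.S3745

/-!
# S3814, package P10 (non-faithful case): the concrete layer

A non-faithful configuration `Cfg V H t π` contains a local configuration `Loc L V U q r`:
`U` a minimal `H`-invariant subgroup of `C_H(V)` (an elementary abelian `u`-group) and `L` a
Hall `u'`-subgroup of `H`.  (`Cfg.minimal` and `BF_T1` are not needed.)
-/

set_option autoImplicit false
set_option linter.style.haveILetI false

namespace Cfsg.Agent.Lib.Helper80.FP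

open Cfsg.Agent.Lib.Helper46.FP

universe u

theorem exists_loc (hF : BF_F.{u}) {G : Type u} [Group G] {V H : Subgroup G} {t : ℕ}
    {π : Finset ℕ} (hc : Cfg V H t π) (hnf : ¬ Faithful V H) :
    ∃ (L U : Subgroup G) (q r : ℕ), q < r ∧ Loc L V U q r := by
  haveI := hc.fin
  haveI hVn := hc.Vnormal
  haveI hsolvG := hc.solv
  have hsolvH : Group.IsSolvable ↥H :=
    Group.isSolvable_of_isSolvable_injective H.subtype_injective
  have ht := hc.tprime
  haveI : Fact t.Prime := ⟨ht⟩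
  have hVt : IsPGroup t V := by
    intro v
    refine ⟨1, ?_⟩
    apply Subtype.ext
    rw [pow_one, Subgroup.coe_pow, Subgroup.coe_one]
    exact hc.Vexp v v.2
  obtain ⟨kV, hkV⟩ := IsPGroup.iff_card.1 hVt
  unfold Faithful at hnf
  push Not at hnf
  obtain ⟨x0, hx0H, hx0V, hx01⟩ := hnf
  obtain ⟨KV, hKVdef⟩ : ∃ KV : Subgroup G, KV = H ⊓ Subgroup.centralizer (V : Set G) :=
    ⟨_, rfl⟩
  have hKVmem : ∀ c, c ∈ KV ↔ c ∈ H ∧ ∀ v ∈ V, v * c = c * v := by
    intro c
    rw [hKVdef, Subgroup.mem_inf, Subgroup.mem_centralizer_iff]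
    rfl
  have hKVH : KV ≤ H := fun c hc => ((hKVmem c).1 hc).1
  have hKVn : ∀ l ∈ H, ∀ c ∈ KV, l * c * l⁻¹ ∈ KV := by
    intro l hl c hc
    rw [hKVmem] at hc ⊢
    refine ⟨H.mul_mem (H.mul_mem hl hc.1) (H.inv_mem hl), ?_⟩
    intro v hv
    have h1 := hc.2 (l⁻¹ * v * l⁻¹⁻¹) (hVn.conj_mem v hv l⁻¹)
    calc v * (l * c * l⁻¹) = l * ((l⁻¹ * v * l⁻¹⁻¹) * c) * l⁻¹ := by group
      _ = l * (c * (l⁻¹ * v * l⁻¹⁻¹)) * l⁻¹ := by rw [h1]
      _ = l * c * l⁻¹ * v := by group
  have hKV1 : KV ≠ ⊥ := by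
    intro hb
    apply hx01
    have h1 : x0 ∈ KV := (hKVmem x0).2 ⟨hx0H, hx0V⟩
    rw [hb, Subgroup.mem_bot] at h1
    exact h1
  obtain ⟨U, hUK, hU1, hUn, hUab, u, hu, hUexp⟩ := exists_min_rel H KV hsolvH hKVH hKVn hKV1
  haveI : Fact u.Prime := ⟨hu⟩
  have hUH : U ≤ H := hUK.trans hKVH
  have hUV : ∀ k ∈ U, ∀ v ∈ V, v * k = k * v := fun k hk => ((hKVmem k).1 (hUK hk)).2
  obtain ⟨k0, hk0, hk01⟩ := exists_ne_one_of_ne_bot hU1
  have hok0 : orderOf k0 = u := orderOf_eq_prime (hUexp k0 hk0) hk01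
  have huH : u ∣ Nat.card H := by
    rw [← hok0]; exact Subgroup.orderOf_dvd_natCard H (hUH hk0)
  have huπ : u ∈ π := hc.Hpi u hu huH
  have hUu : IsPGroup u U := by
    intro v
    refine ⟨1, ?_⟩
    apply Subtype.ext
    rw [pow_one, Subgroup.coe_pow, Subgroup.coe_one]
    exact hUexp v v.2
  obtain ⟨kU, hkU⟩ := IsPGroup.iff_card.1 hUu
  have hut : u ≠ t := fun h => hc.tnot (h ▸ huπ)
  obtain ⟨q, r, hqr, hqπ, hrπ, hqu, hru, hπ⟩ : ∃ q r : ℕ, q < r ∧ q ∈ π ∧ r ∈ π ∧ q ≠ u ∧
      r ≠ u ∧ ∀ ℓ ∈ π, ℓ = u ∨ ℓ = q ∨ ℓ = r := by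
    have h2 : (π.erase u).card = 2 := by rw [Finset.card_erase_of_mem huπ, hc.card3]
    obtain ⟨a, b, hab, hπab⟩ := Finset.card_eq_two.1 h2
    have ha : a ∈ π.erase u := by rw [hπab]; simp
    have hb : b ∈ π.erase u := by rw [hπab]; simp
    have hall : ∀ ℓ ∈ π, ℓ = u ∨ ℓ = a ∨ ℓ = b := by
      intro ℓ hℓ
      by_cases hℓu : ℓ = u
      · exact Or.inl hℓu
      · right
        have h3 : ℓ ∈ π.erase u := Finset.mem_erase.2 ⟨hℓu, hℓ⟩
        rw [hπab] at h3
        simpa using h3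
    rcases lt_or_gt_of_ne hab with hlt | hlt
    · exact ⟨a, b, hlt, (Finset.mem_erase.1 ha).2, (Finset.mem_erase.1 hb).2,
        (Finset.mem_erase.1 ha).1, (Finset.mem_erase.1 hb).1, hall⟩
    · refine ⟨b, a, hlt, (Finset.mem_erase.1 hb).2, (Finset.mem_erase.1 ha).2,
        (Finset.mem_erase.1 hb).1, (Finset.mem_erase.1 ha).1, ?_⟩
      intro ℓ hℓ
      rcases hall ℓ hℓ with h | h | h
      · exact Or.inl h
      · exact Or.inr (Or.inr h)
      · exact Or.inr (Or.inl h)
  have hq := hc.piprime q hqπ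
  have hr := hc.piprime r hrπ
  -- the Hall subgroup
  obtain ⟨a, n, hun, hcardH⟩ :=
    Nat.exists_eq_pow_mul_and_not_dvd (Nat.card_pos (α := H)).ne' u hu.ne_one
  have hG : Nat.card H = n * u ^ a := by rw [hcardH, mul_comm]
  have hmn : n.Coprime (u ^ a) :=
    Nat.Coprime.pow_right a ((Nat.Prime.coprime_iff_not_dvd hu).2 hun).symm
  obtain ⟨L, hLH, hLcard⟩ := Cfsg.Agent.S3745.hall_ex_in hG hmn
  have hLu : ¬ u ∣ Nat.card L := by rw [hLcard]; exact hun
  have hLcardπ : ∀ ℓ : ℕ, ℓ.Prime → ℓ ∣ Nat.card L → ℓ = q ∨ ℓ = r := by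
    intro ℓ hℓ hd
    have h1 : ℓ ∈ π := hc.Hpi ℓ hℓ (hd.trans (Subgroup.card_dvd_of_le hLH))
    rcases hπ ℓ h1 with h | h | h
    · exact absurd (h ▸ hd) hLu
    · exact Or.inl h
    · exact Or.inr h
  have hLt : ¬ t ∣ Nat.card L := by
    intro hd
    exact hc.tnot (hc.Hpi t ht (hd.trans (Subgroup.card_dvd_of_le hLH)))
  have hcopV : (Nat.card L).Coprime (Nat.card V) := by
    rw [hkV]
    exact Nat.Coprime.pow_right kV ((Nat.Prime.coprime_iff_not_dvd ht).2 hLt).symm
  have hcopU : (Nat.card L).Coprime (Nat.card U) := by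
    rw [hkU]
    exact Nat.Coprime.pow_right kU ((Nat.Prime.coprime_iff_not_dvd hu).2 hLu).symm
  have hrankL : ∀ b ∈ π, b ≠ u → ∃ x ∈ L, ∃ y ∈ L, orderOf x = b ∧ orderOf y = b ∧
      x * y = y * x ∧ y ∉ Subgroup.zpowers x := by
    intro b hbπ hbu
    have hb := hc.piprime b hbπ
    haveI : Fact b.Prime := ⟨hb⟩
    obtain ⟨g, hgH, hog⟩ := hc.pair b hbπ u huπ hbu
    obtain ⟨x1, hx1⟩ : ∃ x : G, x = g ^ u := ⟨_, rfl⟩
    have hox : orderOf x1 = b := by
      rw [hx1, orderOf_pow' g hu.ne_zero, hog, Nat.gcd_mul_left_left,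
        Nat.mul_div_cancel _ hu.pos]
    have hxH : x1 ∈ H := by rw [hx1]; exact H.pow_mem hgH u
    obtain ⟨y1, hy1H, hoy1, hxy1, hyx1⟩ := hc.rank b hbπ x1 hxH hox
    obtain ⟨E, hE⟩ : ∃ E : Subgroup G, E = Subgroup.closure ({x1, y1} : Set G) := ⟨_, rfl⟩
    have hx1E : x1 ∈ E := by rw [hE]; exact Subgroup.subset_closure (by simp)
    have hy1E : y1 ∈ E := by rw [hE]; exact Subgroup.subset_closure (by simp)
    have hEH : E ≤ H := by
      rw [hE, Subgroup.closure_le]
      intro z hz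
      rcases hz with rfl | hz
      · exact hxH
      · rw [Set.mem_singleton_iff] at hz
        rw [hz]; exact hy1H
    have hEb : IsPGroup b E := by
      intro e
      refine ⟨1, ?_⟩
      apply Subtype.ext
      rw [pow_one, Subgroup.coe_pow, Subgroup.coe_one]
      exact pow_eq_one_of_mem_closure_pair hxy1 (by rw [← hox]; exact pow_orderOf_eq_one _)
        (by rw [← hoy1]; exact pow_orderOf_eq_one _) (by rw [← hE]; exact e.2)
    obtain ⟨kE, hkE⟩ := IsPGroup.iff_card.1 hEb
    have hEcop : (Nat.card E).Coprime (u ^ a) := by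
      rw [hkE]
      exact Nat.Coprime.pow _ _ ((Nat.coprime_primes hb hu).2 hbu)
    obtain ⟨H', hH'H, hH'card, hEH'⟩ := Cfsg.Agent.S3745.hall_le_in hG hmn hEH hEcop
    obtain ⟨c, hcH, hconj⟩ := Cfsg.Agent.S3745.hall_conj_in hG hmn hH'H hLH hH'card hLcard
    have hmemL : ∀ z ∈ E, c * z * c⁻¹ ∈ L := by
      intro z hz
      rw [← hconj, Cfsg.Agent.Lib.Helper1.mem_conj_smul]
      have h1 : c⁻¹ * (c * z * c⁻¹) * c = z := by group
      rw [h1]
      exact hEH' hz
    refine ⟨c * x1 * c⁻¹, hmemL _ hx1E, c * y1 * c⁻¹, hmemL _ hy1E, ?_, ?_, ?_, ?_⟩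
    · rw [← MulAut.conj_apply, MulEquiv.orderOf_eq]; exact hox
    · rw [← MulAut.conj_apply, MulEquiv.orderOf_eq]; exact hoy1
    · calc c * x1 * c⁻¹ * (c * y1 * c⁻¹) = c * (x1 * y1) * c⁻¹ := by group
        _ = c * (y1 * x1) * c⁻¹ := by rw [hxy1]
        _ = c * y1 * c⁻¹ * (c * x1 * c⁻¹) := by group
    · intro hmem
      obtain ⟨k, hk⟩ := Subgroup.mem_zpowers_iff.1 hmem
      apply hyx1
      rw [Subgroup.mem_zpowers_iff]
      refine ⟨k, ?_⟩
      rw [conj_zpow] at hk
      exact mul_left_cancel (mul_right_cancel hk)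
  refine ⟨L, U, q, r, hqr, ?_⟩
  exact
    { fin := inferInstance
      solv := Group.isSolvable_of_isSolvable_injective L.subtype_injective
      qprime := hq
      rprime := hr
      ne := hqr.ne
      card := hLcardπ
      normV := fun l _ v hv => hVn.conj_mem v hv l
      normU := fun l hl v hv => hUn l (hLH hl) v hv
      abV := hc.Vcomm
      abU := hUab
      neV := hc.Vne
      neU := hU1
      copV := hcopV
      copU := hcopU
      excl := by
        rintro x hxL hxp ⟨v, hv, hv1, hvx⟩ ⟨k, hk, hk1, hkx⟩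
        obtain ⟨p, hp⟩ : ∃ p, p = orderOf x := ⟨_, rfl⟩
        have hpp : p.Prime := hp ▸ hxp
        have hpL : p ∣ Nat.card L := by rw [hp]; exact Subgroup.orderOf_dvd_natCard L hxL
        have hpqr := hLcardπ p hpp hpL
        have hpπ : p ∈ π := by
          rcases hpqr with h | h
          · rw [h]; exact hqπ
          · rw [h]; exact hrπ
        have hpu : p ≠ u := by
          rcases hpqr with h | h
          · rw [h]; exact hqu
          · rw [h]; exact hru
        have hpt : p ≠ t := fun h => hc.tnot (h ▸ hpπ)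
        have hov : orderOf v = t := orderOf_eq_prime (hc.Vexp v hv) hv1
        have hok : orderOf k = u := orderOf_eq_prime (hUexp k hk) hk1
        have hvk : Commute v k := hUV k hk v hv
        have h1 : orderOf (v * k) = t * u := by
          have h0 := hvk.orderOf_mul_eq_mul_orderOf_of_coprime
            (by rw [hov, hok]; exact (Nat.coprime_primes ht hu).2 hut.symm)
          rw [h0, hov, hok]
        have h2 : Commute (v * k) x :=
          (show Commute v x from hvx).mul_left (show Commute k x from hkx)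
        have h3 : orderOf (v * k * x) = t * u * p := by
          have h0 := h2.orderOf_mul_eq_mul_orderOf_of_coprime
            (by
              rw [h1, ← hp]
              exact Nat.Coprime.mul_left ((Nat.coprime_primes ht hpp).2 hpt.symm)
                ((Nat.coprime_primes hu hpp).2 hpu.symm))
          rw [h0, h1, ← hp]
        exact hc.notriple t (Finset.mem_insert_self t π) u (Finset.mem_insert_of_mem huπ) p
          (Finset.mem_insert_of_mem hpπ) hut.symm hpu.symm hpt.symm (v * k * x) h3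
      noV := fun x hx ho => hF hc q hqπ r hrπ hqr.ne x (hLH hx) ho
      noU := by
        rintro x hxL ho ⟨k, hk, hk1, hkx⟩
        have hok : orderOf k = u := orderOf_eq_prime (hUexp k hk) hk1
        have h1 : orderOf (k * x) = u * (q * r) := by
          have h0 := (show Commute k x from hkx).orderOf_mul_eq_mul_orderOf_of_coprime
            (by
              rw [hok, ho]
              exact Nat.Coprime.mul_right ((Nat.coprime_primes hu hq).2 hqu.symm)
                ((Nat.coprime_primes hu hr).2 hru.symm))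
          rw [h0, hok, ho]
        exact hc.notriple u (Finset.mem_insert_of_mem huπ) q (Finset.mem_insert_of_mem hqπ) r
          (Finset.mem_insert_of_mem hrπ) hqu.symm hqr.ne hru.symm (k * x)
          (by rw [h1, mul_assoc])
      rankq := hrankL q hqπ hqu
      rankr := hrankL r hrπ hru }

/-- **Layer 1** of package P10 -/
theorem pkgLayer : PkgLayer.{u} := by
  intro hF _ G _ V H t π hc hnf
  obtain ⟨L, U, q, r, hqr, hloc⟩ := exists_loc hF hc hnf
  exact ⟨↥L, inferInstance, q, r, _, _, hqr, abs_of_loc hloc⟩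

end Cfsg.Agent.Lib.Helper80.FP
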